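import Cfsg.Agent.H60.RS.Ext
import Cfsg.Agent.H659.Rs.Box

/-!
# S3691, SP68-4: `BoxExt` (helper60)
-/

set_option autoImplicit false

namespace Cfsg.Agent.H60.RS

open Module Cfsg Cfsg.Geo
open scoped MatrixGroups Matrix

/-- the normaliser of a self-adjoint field of degree `b` in `Sp_2bk(q)` -/
theorem boxExt : H659.Rs.BoxExt := by
  intro F _ _ m b k hb hk hm K hK hsa halt R hR hRK
  have h0 : 0 < m := by rw [hm]; exact Nat.mul_pos hb.pos hk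
  have hne : Nonempty (Fin m ⊕ Fin m) := ⟨Sum.inl ⟨0, h0⟩⟩
  obtain ⟨E, fE, ftE, hE, φ, hφ⟩ := exists_frame hb.pos hk hm hK hsa halt
  refine ⟨E, fE, ftE, low φ R, hE, ?_, ?_, ?_⟩
  · rintro _ ⟨x, hx, rfl⟩ u v
    change sympForm k E ((liftHom φ x : Matrix (Fin k ⊕ Fin k) (Fin k ⊕ Fin k) E) *ᵥ u)
      ((liftHom φ x : Matrix (Fin k ⊕ Fin k) (Fin k ⊕ Fin k) E) *ᵥ v) = sympForm k E u v
    have hx' : (x : GL (Fin m ⊕ Fin m) F) ∈ R := hx
    rw [lift_apply, lift_apply, hφ (x : GL (Fin m ⊕ Fin m) F) (hR hx') x.2, φ.ψ.apply_symm_apply, φ.ψ.apply_symm_apply]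
  · rw [card_low, mul_comm]
    exact card_dvd_mul hK hRK
  · rw [card_low]
    exact Subgroup.card_dvd_of_le inf_le_left

end Cfsg.Agent.H60.RS
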